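import Mathlib

/-!
# Congruences for fibres of the characteristic polynomial on unipotent cosets

A Chevalley–Warning count: for polynomials `c i` of total degree at most `d i` in `∑ i, d i`
variables over a finite field, the number of common solutions of `c i = f i` does not depend on
`f` modulo the characteristic.  The coefficients of the characteristic polynomial of `g * u`,
`u` upper unitriangular, are such polynomials.
-/

set_option autoImplicit false

open MvPolynomial

namespace Cfsg.Agent.H42.Fibre

section Count

variable {F : Type*} [Field F] [Fintype F] {σ ι : Type*}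

/-- The indicator polynomial of the equations `c i = f i`, `i ∈ s`. -/
noncomputable def indPoly (c : ι → MvPolynomial σ F) (f : ι → F) (s : Finset ι) : MvPolynomial σ F :=
  ∏ i ∈ s, (1 - (c i - C (f i)) ^ (Fintype.card F - 1))

omit [Fintype F] in
theorem totalDegree_sub_C_le {P : MvPolynomial σ F} {d : ℕ} (h : P.totalDegree ≤ d) (a : F) :
    (P - C a).totalDegree ≤ d :=
  (totalDegree_sub _ _).trans (max_le h (by simp))

theorem totalDegree_indPoly_sub_le (c : ι → MvPolynomial σ F) (d : ι → ℕ)
    (hd : ∀ i, (c i).totalDegree ≤ d i) (hd0 : ∀ i, 1 ≤ d i) (f f' : ι → F) (s : Finset ι) :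
    (indPoly c f s - indPoly c f' s).totalDegree ≤ (∑ i ∈ s, d i) * (Fintype.card F - 1) - 1 := by
  classical
  set m := Fintype.card F - 1 with hm
  have hm1 : 1 ≤ m := by have := Fintype.one_lt_card (α := F); omega
  have hfac : ∀ (g : ι → F) i, (1 - (c i - C (g i)) ^ m).totalDegree ≤ d i * m := by
    intro g i
    refine (totalDegree_sub _ _).trans (max_le (by simp) ((totalDegree_pow _ _).trans ?_))
    rw [mul_comm]
    exact Nat.mul_le_mul_right _ (totalDegree_sub_C_le (hd i) _)
  induction s using Finset.induction with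
  | empty => simp [indPoly]
  | @insert a s ha ih =>
    simp only [indPoly, Finset.prod_insert ha, Finset.sum_insert ha, ← hm] at ih ⊢
    set A := 1 - (c a - C (f a)) ^ m with hA
    set A' := 1 - (c a - C (f' a)) ^ m with hA'
    set R := ∏ i ∈ s, (1 - (c i - C (f i)) ^ m) with hR
    set R' := ∏ i ∈ s, (1 - (c i - C (f' i)) ^ m) with hR'
    have hpos : 1 ≤ d a * m := Nat.one_le_iff_ne_zero.2 (Nat.mul_ne_zero (by have := hd0 a; omega) (by omega))
    rw [show A * R - A' * R' = (A - A') * R + A' * (R - R') by ring, add_mul]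
    refine (totalDegree_add _ _).trans (max_le ?_ ?_)
    · have h1 : (A - A').totalDegree ≤ d a * (m - 1) := by
        have e : A - A' = (∑ j ∈ Finset.range m, (c a - C (f' a)) ^ j *
            (c a - C (f a)) ^ (m - 1 - j)) * C (f a - f' a) := by
          rw [hA, hA', sub_sub_sub_cancel_left, ← geom_sum₂_mul, sub_sub_sub_cancel_left, ← C_sub]
        rw [e]
        refine (totalDegree_mul _ _).trans ?_
        rw [totalDegree_C, add_zero]
        refine (totalDegree_finsetSum _ _).trans (Finset.sup_le fun j hj => ?_)
        refine (totalDegree_mul _ _).trans ?_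
        have hj' := Finset.mem_range.1 hj
        refine (Nat.add_le_add ((totalDegree_pow _ _).trans
          (Nat.mul_le_mul_left _ (totalDegree_sub_C_le (hd a) _))) ((totalDegree_pow _ _).trans
          (Nat.mul_le_mul_left _ (totalDegree_sub_C_le (hd a) _)))).trans ?_
        rw [← add_mul, mul_comm]
        exact Nat.mul_le_mul_left _ (by omega)
      have h2 : R.totalDegree ≤ (∑ i ∈ s, d i) * m := by
        rw [hR, Finset.sum_mul]
        exact (totalDegree_finsetProd _ _).trans (Finset.sum_le_sum fun i _ => hfac f i)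
      refine (totalDegree_mul _ _).trans ?_
      have h3 : d a * (m - 1) + d a = d a * m := by
        rw [← Nat.mul_succ]; congr 1; omega
      have := hd0 a
      omega
    · rcases eq_or_ne (R - R') 0 with h0 | h0
      · rw [h0, mul_zero, totalDegree_zero]; exact Nat.zero_le _
      have hne : s.Nonempty := by
        rw [Finset.nonempty_iff_ne_empty]
        rintro rfl
        exact h0 (by simp [hR, hR'])
      have hspos : 1 ≤ (∑ i ∈ s, d i) * m := by
        obtain ⟨i, hi⟩ := hne
        have := (hd0 i).trans (Finset.single_le_sum (fun j _ => Nat.zero_le (d j)) hi)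
        exact Nat.one_le_iff_ne_zero.2 (Nat.mul_ne_zero (by omega) (by omega))
      refine (totalDegree_mul _ _).trans ((Nat.add_le_add (hfac f' a) ih).trans ?_)
      omega

theorem eval_indPoly [Fintype ι] (c : ι → MvPolynomial σ F) (f : ι → F) (x : σ → F)
    [Decidable (∀ i, eval x (c i) = f i)] :
    eval x (indPoly c f Finset.univ) = if ∀ i, eval x (c i) = f i then 1 else 0 := by
  have hm : Fintype.card F - 1 ≠ 0 := by have := Fintype.one_lt_card (α := F); omega
  rw [indPoly, map_prod]
  split_ifs with h
  · refine Finset.prod_eq_one fun i _ => ?_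
    simp [h i, zero_pow hm]
  · push Not at h
    obtain ⟨i, hi⟩ := h
    refine Finset.prod_eq_zero (Finset.mem_univ i) ?_
    simp [FiniteField.pow_card_sub_one_eq_one _ (sub_ne_zero.2 hi)]

/-- The number of solutions of `c i = f i` does not depend on `f` in `F`. -/
theorem natCast_card_fibre_eq [Fintype σ] [Nonempty σ] [Fintype ι] [DecidableEq σ] [DecidableEq F]
    (c : ι → MvPolynomial σ F) (d : ι → ℕ) (hd : ∀ i, (c i).totalDegree ≤ d i) (hd0 : ∀ i, 1 ≤ d i)
    (hsum : ∑ i, d i ≤ Fintype.card σ) (f f' : ι → F) :
    ((Finset.univ.filter fun x : σ → F => ∀ i, eval x (c i) = f i).card : F) =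
      ((Finset.univ.filter fun x : σ → F => ∀ i, eval x (c i) = f' i).card : F) := by
  classical
  have key : ∀ g : ι → F, ((Finset.univ.filter fun x : σ → F => ∀ i, eval x (c i) = g i).card : F) =
      ∑ x : σ → F, eval x (indPoly c g Finset.univ) := by
    intro g
    rw [Finset.sum_congr rfl fun x _ => eval_indPoly c g x, Finset.sum_boole]
  rw [key, key, ← sub_eq_zero, ← Finset.sum_sub_distrib,
    Finset.sum_congr rfl fun x _ => (map_sub (eval x) _ _).symm]
  refine MvPolynomial.sum_eval_eq_zero _ ?_
  refine (totalDegree_indPoly_sub_le c d hd hd0 f f' Finset.univ).trans_lt ?_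
  have hm : 0 < Fintype.card F - 1 := by have := Fintype.one_lt_card (α := F); omega
  have h1 := Nat.mul_le_mul_right (Fintype.card F - 1) hsum
  have h2 : 0 < Fintype.card σ * (Fintype.card F - 1) := Nat.mul_pos Fintype.card_pos hm
  rw [mul_comm (Fintype.card F - 1)]
  omega

end Count

section Degree

variable {F : Type*} [CommRing F] {σ : Type*}

/-- The joint degree in `X` and the variables is at most `d`. -/
def JointLE (d : ℕ) (P : Polynomial (MvPolynomial σ F)) : Prop :=
  ∀ k, P.coeff k = 0 ∨ (P.coeff k).totalDegree + k ≤ d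

theorem jointLE_add {d : ℕ} {P Q : Polynomial (MvPolynomial σ F)} (hP : JointLE d P) (hQ : JointLE d Q) :
    JointLE d (P + Q) := by
  intro k
  rcases eq_or_ne (P.coeff k) 0 with h | h
  · simpa [h] using hQ k
  rcases eq_or_ne (Q.coeff k) 0 with h' | h'
  · simpa [h'] using hP k
  right
  have h1 := (hP k).resolve_left h
  have h2 := (hQ k).resolve_left h'
  have h3 := totalDegree_add (P.coeff k) (Q.coeff k)
  rw [Polynomial.coeff_add]
  omega

theorem jointLE_smul_int {d : ℕ} {P : Polynomial (MvPolynomial σ F)} (hP : JointLE d P) (z : ℤˣ) :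
    JointLE d (z • P) := by
  intro k
  rcases Int.units_eq_one_or z with rfl | rfl
  · simpa using hP k
  · simpa using hP k

theorem jointLE_mul {a b : ℕ} {P Q : Polynomial (MvPolynomial σ F)} (hP : JointLE a P) (hQ : JointLE b Q) :
    JointLE (a + b) (P * Q) := by
  intro k
  by_cases hk : (P * Q).coeff k = 0
  · exact Or.inl hk
  right
  have hle : k ≤ a + b := by
    obtain ⟨x, hx, hne⟩ := Finset.exists_ne_zero_of_sum_ne_zero (Polynomial.coeff_mul P Q k ▸ hk)
    have h1 := (hP x.1).resolve_left (left_ne_zero_of_mul hne)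
    have h2 := (hQ x.2).resolve_left (right_ne_zero_of_mul hne)
    have h3 := Finset.HasAntidiagonal.mem_antidiagonal.1 hx
    omega
  suffices h : ((P * Q).coeff k).totalDegree ≤ a + b - k by omega
  rw [Polynomial.coeff_mul]
  refine (totalDegree_finsetSum _ _).trans (Finset.sup_le fun x hx => ?_)
  rcases eq_or_ne (P.coeff x.1 * Q.coeff x.2) 0 with h0 | h0
  · rw [h0, totalDegree_zero]; exact Nat.zero_le _
  have h1 := (hP x.1).resolve_left (left_ne_zero_of_mul h0)
  have h2 := (hQ x.2).resolve_left (right_ne_zero_of_mul h0)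
  have h3 := Finset.HasAntidiagonal.mem_antidiagonal.1 hx
  refine (totalDegree_mul _ _).trans ?_
  omega

theorem jointLE_prod {ι : Type*} (s : Finset ι) (P : ι → Polynomial (MvPolynomial σ F))
    (d : ι → ℕ) (h : ∀ i ∈ s, JointLE (d i) (P i)) : JointLE (∑ i ∈ s, d i) (∏ i ∈ s, P i) := by
  classical
  induction s using Finset.induction with
  | empty =>
    intro k
    rcases k with _ | k
    · right; simp
    · left; simp [Polynomial.coeff_one]
  | @insert a s ha ih =>
    rw [Finset.sum_insert ha, Finset.prod_insert ha]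
    exact jointLE_mul (h a (Finset.mem_insert_self _ _))
      (ih fun i hi => h i (Finset.mem_insert_of_mem hi))

theorem jointLE_sum {ι : Type*} (s : Finset ι) (P : ι → Polynomial (MvPolynomial σ F))
    (d : ℕ) (h : ∀ i ∈ s, JointLE d (P i)) : JointLE d (∑ i ∈ s, P i) := by
  classical
  induction s using Finset.induction with
  | empty => intro k; left; simp
  | @insert a s ha ih =>
    rw [Finset.sum_insert ha]
    exact jointLE_add (h a (Finset.mem_insert_self _ _))
      (ih fun i hi => h i (Finset.mem_insert_of_mem hi))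

/-- For a matrix with entries of degree at most one the coefficient of `X ^ k` in the
characteristic polynomial has degree at most `n - k`. -/
theorem totalDegree_coeff_charpoly_le {n : ℕ} (A : Matrix (Fin n) (Fin n) (MvPolynomial σ F))
    (hA : ∀ i j, (A i j).totalDegree ≤ 1) (k : ℕ) :
    (A.charpoly.coeff k).totalDegree ≤ n - k := by
  have hentry : ∀ i j, JointLE 1 (Matrix.charmatrix A i j) := by
    intro i j
    have hC : JointLE 1 (-Polynomial.C (A i j)) := by
      intro l
      rcases l with _ | l
      · right
        rw [Polynomial.coeff_neg, Polynomial.coeff_C_zero, totalDegree_neg]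
        simpa using hA i j
      · left; simp
    rcases eq_or_ne i j with rfl | hij
    · rw [Matrix.charmatrix_apply_eq, sub_eq_add_neg]
      refine jointLE_add (fun l => ?_) hC
      rcases eq_or_ne l 1 with rfl | hl
      · right; simp
      · left; simp [Polynomial.coeff_X, Ne.symm hl]
    · rw [Matrix.charmatrix_apply_ne _ _ _ hij]; exact hC
  have h : JointLE n A.charpoly := by
    rw [Matrix.charpoly, Matrix.det_apply]
    refine jointLE_sum _ _ n fun π _ => jointLE_smul_int ?_ _
    simpa using jointLE_prod Finset.univ (fun i => Matrix.charmatrix A (π i) i) (fun _ => 1)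
      fun i _ => hentry _ _
  rcases h k with h0 | h0
  · rw [h0, totalDegree_zero]; exact Nat.zero_le _
  · omega

end Degree

section Strict

/-- The strictly upper triangular positions. -/
abbrev Pos (n : ℕ) := {x : Fin n × Fin n // x.1 < x.2}

theorem card_pos (n : ℕ) : Fintype.card (Pos n) = ∑ i : Fin n, (i : ℕ) := by
  have e : Pos n ≃ Σ j : Fin n, Fin j :=
    { toFun := fun x => ⟨x.1.2, ⟨x.1.1, x.2⟩⟩
      invFun := fun y => ⟨(⟨y.2, y.2.2.trans y.1.2⟩, y.1), y.2.2⟩
      left_inv := fun x => rfl
      right_inv := fun y => rfl }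
  rw [Fintype.card_congr e, Fintype.card_sigma]
  simp

theorem sum_weights (n : ℕ) : ∑ j : Fin (n - 1), (n - ((j : ℕ) + 1)) = ∑ i : Fin n, (i : ℕ) := by
  rw [Fin.sum_univ_eq_sum_range (fun j => n - (j + 1)), Fin.sum_univ_eq_sum_range (fun i => i),
    ← Finset.sum_range_reflect (fun i => i) n]
  rcases n with _ | n
  · simp
  rw [Nat.add_sub_cancel, Finset.sum_range_succ (fun j => n - j) n, Nat.sub_self, add_zero]
  exact Finset.sum_congr rfl fun j _ => by omega

variable {F : Type*} [Field F] {n : ℕ}

/-- The upper unitriangular matrix with the given entries. -/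
def uMat {R : Type*} [Zero R] [One R] (x : Pos n → R) : Matrix (Fin n) (Fin n) R :=
  Matrix.of fun i j => if h : i < j then x ⟨(i, j), h⟩ else if i = j then 1 else 0

theorem uMat_map {R S : Type*} [CommRing R] [CommRing S] (f : R →+* S) (x : Pos n → R) :
    (uMat x).map f = uMat fun a => f (x a) := by
  ext i j
  simp only [Matrix.map_apply, uMat, Matrix.of_apply]
  split_ifs <;> simp

theorem det_uMat (x : Pos n → F) : (uMat x).det = 1 := by
  rw [Matrix.det_of_isUpperTriangular (M := uMat x) fun i j (hij : j < i) => by
    simp [uMat, not_lt.2 hij.le, hij.ne']]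
  refine Finset.prod_eq_one fun i _ => ?_
  simp [uMat]

/-- The `j + 1`st coefficient of the characteristic polynomial of `A * u`. -/
noncomputable def coeffPoly (A : Matrix (Fin n) (Fin n) F) (j : Fin (n - 1)) : MvPolynomial (Pos n) F :=
  ((A.map C * uMat fun a => X a).charpoly).coeff ((j : ℕ) + 1)

theorem totalDegree_coeffPoly_le (A : Matrix (Fin n) (Fin n) F) (j : Fin (n - 1)) :
    (coeffPoly A j).totalDegree ≤ n - ((j : ℕ) + 1) := by
  refine totalDegree_coeff_charpoly_le _ (fun i l => ?_) _
  rw [Matrix.mul_apply]
  refine (totalDegree_finsetSum _ _).trans (Finset.sup_le fun m _ => ?_)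
  refine (totalDegree_mul _ _).trans ?_
  rw [Matrix.map_apply, totalDegree_C, zero_add]
  simp only [uMat, Matrix.of_apply]
  split_ifs <;> simp

theorem eval_coeffPoly (A : Matrix (Fin n) (Fin n) F) (j : Fin (n - 1)) (x : Pos n → F) :
    eval x (coeffPoly A j) = (A * uMat x).charpoly.coeff ((j : ℕ) + 1) := by
  rw [coeffPoly, ← Polynomial.coeff_map, ← Matrix.charpoly_map, Matrix.map_mul, uMat_map]
  congr 4
  · ext i l; simp
  · funext a; simp

/-- **The count.** The number of `u` with prescribed middle coefficients of the characteristic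
polynomial of `A * u` is independent of the coefficients modulo the characteristic. -/
theorem card_charpoly_fibre_modEq [Fintype F] [DecidableEq F] (p : ℕ) [CharP F p] (hn : 2 ≤ n)
    (A : Matrix (Fin n) (Fin n) F) (f f' : Fin (n - 1) → F) :
    (Finset.univ.filter fun x : Pos n → F => ∀ j : Fin (n - 1),
        (A * uMat x).charpoly.coeff ((j : ℕ) + 1) = f j).card ≡
      (Finset.univ.filter fun x : Pos n → F => ∀ j : Fin (n - 1),
        (A * uMat x).charpoly.coeff ((j : ℕ) + 1) = f' j).card [MOD p] := by
  have : Nonempty (Pos n) := ⟨⟨(⟨0, by omega⟩, ⟨1, by omega⟩), Fin.mk_lt_mk.2 Nat.zero_lt_one⟩⟩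
  rw [← CharP.natCast_eq_natCast F p]
  simp only [← eval_coeffPoly]
  have := natCast_card_fibre_eq (coeffPoly A) (fun j : Fin (n - 1) => n - ((j : ℕ) + 1)) (totalDegree_coeffPoly_le A)
    (fun j => by have := j.2; omega) (by rw [sum_weights, card_pos]) f f'
  convert this using 0
  congr! 6

end Strict

end Cfsg.Agent.H42.Fibre
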