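import Cfsg.Prelude.Def_Blocks
import Cfsg.Agent.H68.HeckeIntegral
import Cfsg.Agent.H42.ClassMult
import Cfsg.Agent.H26.CharFS
import Cfsg.Agent.H25.CharValues
import Cfsg.Agent.H27.DefectZero
import Cfsg.Agent.H40.Residue

/-!
# A criterion for uniqueness of the defect zero character

Let `U` be a Sylow `p`-subgroup of `G`.  For a character `χ` of defect zero put
`A χ g = ∑ u ∈ U, χ (g * u)`.  If, modulo `M`, all these functions factor as `a g * S χ` with
`a` independent of `χ`, then `G` has at most one character of defect zero.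
-/

set_option autoImplicit false

open scoped ComplexConjugate

namespace Cfsg.Agent.H42.DZU

open Cfsg Cfsg.Agent.H68

universe v

variable {G : Type v} [Group G] [Fintype G]

/-- A character value as an algebraic integer. -/
noncomputable def valA (χ : IrrCharacter G) (g : G) : AlgInt :=
  ⟨(χ : G → ℂ) g, by
    obtain ⟨n, ρ, -, e⟩ := χ.2
    rw [← e]
    exact (mem_integralClosure_iff ℤ ℂ).2 (H25.isIntegral_char ρ g)⟩

@[simp] theorem coe_valA (χ : IrrCharacter G) (g : G) : ((valA χ g : AlgInt) : ℂ) = (χ : G → ℂ) g :=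
  rfl

/-- The sum of a character over a left coset. -/
noncomputable def cosetSum (U : Subgroup G) (χ : IrrCharacter G) (g : G) : AlgInt :=
  haveI := Fintype.ofFinite U
  ∑ u : U, valA χ (g * u)

theorem cosetSum_eq_sum (U : Subgroup G) [Fintype U] (χ : IrrCharacter G) (g : G) :
    cosetSum U χ g = ∑ u : U, valA χ (g * u) := by
  unfold cosetSum
  congr 1
  exact congrArg (@Finset.univ U) (Subsingleton.elim _ _)

theorem coe_cosetSum (U : Subgroup G) [Fintype U] (χ : IrrCharacter G) (g : G) :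
    ((cosetSum U χ g : AlgInt) : ℂ) = ∑ u : U, (χ : G → ℂ) (g * u) := by
  simp [cosetSum_eq_sum]

theorem cosetSum_biinv (U : Subgroup G) (χ : IrrCharacter G) {u v : G} (hu : u ∈ U) (hv : v ∈ U)
    (g : G) : cosetSum U χ (u * g * v) = cosetSum U χ g := by
  have := Fintype.ofFinite U
  apply Subtype.ext
  rw [coe_cosetSum, coe_cosetSum]
  refine Fintype.sum_equiv (Equiv.mulLeft (⟨v, hv⟩ : U) |>.trans (Equiv.mulRight (⟨u, hu⟩ : U))) _ _
    fun w => ?_
  rw [← H26.irr_conj χ (u * g * v * (w : G)) u⁻¹]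
  simp [mul_assoc]

/-- The scalar product of two coset sum functions. -/
theorem sum_cosetSum_mul {p : ℕ} [Fact p.Prime] (U : Subgroup G) [Fintype U] (hU : IsPGroup p U)
    (χ ψ : IrrCharacter G) [Decidable (χ = ψ)]
    (hψ : ∀ x : G, p ∣ orderOf x → (ψ : G → ℂ) x = 0) :
    ∑ g : G, (cosetSum U χ g : ℂ) * (cosetSum U (H26.conjIrr ψ) g : ℂ) =
      if χ = ψ then (Nat.card U : ℂ) * (Nat.card G : ℂ) else 0 := by
  classical
  set ψ' := H26.conjIrr ψ
  have h1 : ∀ g, (cosetSum U χ g : ℂ) * (cosetSum U ψ' g : ℂ) =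
      ∑ u : U, ∑ v : U, (χ : G → ℂ) (g * u) * (ψ' : G → ℂ) (g * v) := fun g => by
    rw [coe_cosetSum, coe_cosetSum, Finset.sum_mul_sum]
  simp only [h1]
  rw [Finset.sum_comm]
  have h2 : ∀ u : U, ∑ g : G, ∑ v : U, (χ : G → ℂ) (g * u) * (ψ' : G → ℂ) (g * v) =
      ((if χ = ψ then (Nat.card G : ℂ) else 0)) := by
    intro u
    rw [Finset.sum_comm]
    have h3 : ∀ v : U, ∑ g : G, (χ : G → ℂ) (g * u) * (ψ' : G → ℂ) (g * v) =
        (∑ x : G, (χ : G → ℂ) x * (ψ' : G → ℂ) x) / (ψ' : G → ℂ) 1 *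
          (ψ' : G → ℂ) ((u : G)⁻¹ * v) := by
      intro v
      rw [← irr_sum_mul ψ' (χ : G → ℂ) (H26.irr_isClassFunction χ)]
      exact Fintype.sum_equiv (Equiv.mulRight (u : G)) _ _ fun g => by simp [mul_assoc]
    rw [Fintype.sum_congr _ _ h3, ← Finset.mul_sum,
      Fintype.sum_eq_single u (fun v hv => ?_)]
    · rw [inv_mul_cancel, div_mul_cancel₀ _ (H26.irr_one_ne_zero ψ')]
      have h4 := H26.classInner_irr χ ψ
      rw [Cfsg.classInner, inv_mul_eq_iff_eq_mul₀ (Nat.cast_ne_zero.2 Nat.card_pos.ne')] at h4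
      simp only [ψ', H26.conjIrr_val]
      refine Eq.trans ?_ (h4.trans (by split_ifs <;> simp))
      rfl
    · have hne : u⁻¹ * v ≠ 1 := fun e => hv (inv_mul_eq_one.1 e).symm
      obtain ⟨k, hk⟩ := IsPGroup.iff_orderOf.1 hU (u⁻¹ * v)
      have hp : p ∣ orderOf ((u : G)⁻¹ * v) := by
        rw [show (u : G)⁻¹ * v = ((u⁻¹ * v : U) : G) from rfl, Subgroup.orderOf_coe, hk]
        refine dvd_pow_self p fun h0 => hne (orderOf_eq_one_iff.1 ?_)
        rw [hk, h0, pow_zero]
      simp [ψ', H26.conjIrr_val, hψ _ hp]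
  rw [Fintype.sum_congr _ _ h2, Finset.sum_const, Finset.card_univ, Nat.card_eq_fintype_card]
  split_ifs <;> simp

open scoped Classical in
/-- `cosetSum χ g` is the order of the stabiliser times an algebraic integer. -/
theorem exists_cosetSum_eq_stab_mul (U : Subgroup G) (χ : IrrCharacter G) (g : G) :
    ∃ τ : AlgInt, cosetSum U χ g =
      (Nat.card (MulAction.stabilizer U (QuotientGroup.mk g : G ⧸ U)) : AlgInt) * τ := by
  have := Fintype.ofFinite U
  obtain ⟨r, ρ, hρ, e⟩ := χ.2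
  have := hρ
  refine ⟨⟨_, (mem_integralClosure_iff ℤ ℂ).2 (Hecke.isIntegral_trace (Hecke.isIntegral_TT (U := U) (ρ := ρ) g))⟩,
    Subtype.ext ?_⟩
  have hU0 : (Nat.card U : ℂ) ≠ 0 := Nat.cast_ne_zero.2 Nat.card_pos.ne'
  have htr : LinearMap.trace ℂ (Fin r → ℂ) (Hecke.avg U ρ * ρ g) =
      (Nat.card U : ℂ)⁻¹ * ∑ u : U, (χ : G → ℂ) (g * u) := by
    rw [Hecke.avg, smul_mul_assoc, map_smul, smul_eq_mul, Finset.sum_mul, map_sum]
    congr 1
    refine Finset.sum_congr (congrArg (@Finset.univ U) (Subsingleton.elim _ _)) fun u _ => ?_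
    rw [← map_mul]
    show ρ.character ((u : G) * g) = _
    rw [show (u : G) * g = (u : G) * (g * u) * (u : G)⁻¹ by group, e, H26.irr_conj]
  rw [MulMemClass.coe_mul, coe_cosetSum]
  show _ = ((Nat.card _ : AlgInt) : ℂ) * LinearMap.trace ℂ _ (Hecke.TT U ρ g)
  rw [Hecke.TT, map_smul, smul_eq_mul, Hecke.trace_ee, htr, ← mul_assoc, ← mul_assoc]
  push_cast
  rw [← Nat.cast_mul, mul_comm _ (Hecke.orb U g), Hecke.orb_mul_stab, mul_inv_cancel₀ hU0, one_mul]

open scoped Classical in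
/-- The orthogonality relation of the reduced coset sums over the free double cosets. -/
theorem exists_free_sum_eq (p : ℕ) [Fact p.Prime] (M : Ideal AlgInt) (hM : IsPModular p M)
    (U : Subgroup G) (hU : IsPGroup p U) :
    ∃ T : Finset G, ∀ χ ψ : IrrCharacter G, (∀ x : G, p ∣ orderOf x → (ψ : G → ℂ) x = 0) →
      ∑ g ∈ T, Ideal.Quotient.mk M (cosetSum U χ g) *
          Ideal.Quotient.mk M (cosetSum U (H26.conjIrr ψ) g) =
        if χ = ψ then (U.index : AlgInt ⧸ M) else 0 := by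
  have := Fintype.ofFinite U
  let D := Finset.univ.image (Hecke.dc U)
  let rep : MulAction.orbitRel.Quotient U (G ⧸ U) → G := Function.invFun (Hecke.dc U)
  have hrep : ∀ c ∈ D, Hecke.dc U (rep c) = c := fun c hc => by
    obtain ⟨d, -, rfl⟩ := Finset.mem_image.1 hc
    exact Function.invFun_eq ⟨d, rfl⟩
  let st : G → ℕ := fun g => Nat.card (MulAction.stabilizer U (QuotientGroup.mk g : G ⧸ U))
  refine ⟨(D.image rep).filter fun g => st g = 1, fun χ ψ hψ => ?_⟩
  choose τ hτ using exists_cosetSum_eq_stab_mul U χ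
  choose τ' hτ' using exists_cosetSum_eq_stab_mul U (H26.conjIrr ψ)
  have hexact : ∑ c ∈ D, ((st (rep c) : AlgInt) * (τ (rep c) * τ' (rep c))) =
      if χ = ψ then (U.index : AlgInt) else 0 := by
    have h := sum_cosetSum_mul U hU χ ψ hψ
    rw [← Finset.sum_fiberwise_of_maps_to (g := Hecke.dc U) (t := D)
      (fun g _ => Finset.mem_image_of_mem _ (Finset.mem_univ g))] at h
    have h1 : ∀ c ∈ D, ∑ g ∈ Finset.univ.filter (fun g : G => Hecke.dc U g = c),
        ((cosetSum U χ g : ℂ) * (cosetSum U (H26.conjIrr ψ) g : ℂ)) =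
        ((Nat.card U : ℂ) * (Nat.card U : ℂ)) *
          (((st (rep c) : AlgInt) * (τ (rep c) * τ' (rep c)) : AlgInt) : ℂ) := by
      intro c hc
      have hconst : ∀ g ∈ Finset.univ.filter (fun g : G => Hecke.dc U g = c),
          (cosetSum U χ g : ℂ) * (cosetSum U (H26.conjIrr ψ) g : ℂ) =
            (cosetSum U χ (rep c) : ℂ) * (cosetSum U (H26.conjIrr ψ) (rep c) : ℂ) := by
        intro g hg
        obtain ⟨u, hu, v, hv, he⟩ := Hecke.dc_eq_iff.1 ((Finset.mem_filter.1 hg).2.trans (hrep c hc).symm)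
        rw [he, cosetSum_biinv U χ hu hv, cosetSum_biinv U _ hu hv]
      rw [Finset.sum_congr rfl hconst, Finset.sum_const,
        show (Finset.univ.filter fun g : G => Hecke.dc U g = c).card =
          Nat.card U * Hecke.orb U (rep c) by
          rw [← Hecke.card_dc (rep c)]; congr 1; simp [hrep c hc],
        nsmul_eq_mul, hτ, hτ']
      push_cast
      have h2 : ((Hecke.orb U (rep c) : ℂ)) * (st (rep c) : ℂ) = (Nat.card U : ℂ) := by
        rw [← Nat.cast_mul, Hecke.orb_mul_stab]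
      simp only [st] at h2 ⊢
      rw [← h2]
      ring
    rw [Finset.sum_congr rfl h1, ← Finset.mul_sum] at h
    have hU0 : (Nat.card U : ℂ) * (Nat.card U : ℂ) ≠ 0 :=
      mul_ne_zero (Nat.cast_ne_zero.2 Nat.card_pos.ne') (Nat.cast_ne_zero.2 Nat.card_pos.ne')
    apply Subtype.ext
    refine mul_left_cancel₀ hU0 ?_
    rw [AddSubmonoidClass.coe_finsetSum, h]
    split_ifs
    · rw [← U.card_mul_index]; push_cast; ring
    · simp
  have hinj : Set.InjOn rep D := fun a ha b hb e => by rw [← hrep a ha, e, hrep b hb]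
  rw [Finset.filter_image, Finset.sum_image fun a ha b hb =>
    hinj (Finset.mem_filter.1 ha).1 (Finset.mem_filter.1 hb).1, Finset.sum_filter]
  have h2 := congrArg (Ideal.Quotient.mk M) hexact
  rw [map_sum, apply_ite (Ideal.Quotient.mk M), map_natCast, map_zero] at h2
  rw [← h2]
  refine Finset.sum_congr rfl fun c hc => ?_
  have hp0 : (p : AlgInt ⧸ M) = 0 := by
    rw [← map_natCast (Ideal.Quotient.mk M), Ideal.Quotient.eq_zero_iff_mem]
    exact hM.2.2
  split_ifs with h1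
  · rw [hτ, hτ']
    simp only [st] at h1 ⊢
    rw [h1]
    simp
  · obtain ⟨j, hj⟩ := IsPGroup.iff_card.1
      (hU.to_subgroup (MulAction.stabilizer U (QuotientGroup.mk (rep c) : G ⧸ U)))
    have hj0 : j ≠ 0 := fun h0 => h1 (by simp only [st, hj, h0, pow_zero])
    simp only [map_mul, st, hj, Nat.cast_pow, map_pow, map_natCast, hp0, zero_pow hj0, zero_mul]

/-- At most one character of defect zero, given that the reduced coset sums factor. -/
theorem eq_of_factor (p : ℕ) [Fact p.Prime] (M : Ideal AlgInt) (hM : IsPModular p M)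
    (U : Subgroup G) (hU : IsPGroup p U) (hidx : ¬ p ∣ U.index)
    (hfac : ∃ a : G → AlgInt ⧸ M, ∀ χ : IrrCharacter G,
      (∀ x : G, p ∣ orderOf x → (χ : G → ℂ) x = 0) →
      (Nat.card G).factorization p ≤ (Cfsg.charDegree (χ : G → ℂ)).factorization p →
      ∃ S : AlgInt ⧸ M, ∀ g, Ideal.Quotient.mk M (cosetSum U χ g) = a g * S)
    (χ ψ : IrrCharacter G)
    (hχ : (Nat.card G).factorization p ≤ (Cfsg.charDegree (χ : G → ℂ)).factorization p)
    (hψ : (Nat.card G).factorization p ≤ (Cfsg.charDegree (ψ : G → ℂ)).factorization p) :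
    χ = ψ := by
  classical
  have hvan : ∀ φ : IrrCharacter G,
      (Nat.card G).factorization p ≤ (Cfsg.charDegree (φ : G → ℂ)).factorization p →
      ∀ x : G, p ∣ orderOf x → (φ : G → ℂ) x = 0 := fun φ hφ =>
    H27.char_eq_zero_of_defect_zero φ (Fact.out : p.Prime) (Nat.ordProj_dvd _ p)
      (Nat.pow_succ_factorization_not_dvd Nat.card_pos.ne' Fact.out) (irr_one_eq φ)
      ((pow_dvd_pow p hφ).trans (Nat.ordProj_dvd _ p))
  have hconj : ∀ φ : IrrCharacter G,
      Cfsg.charDegree ((H26.conjIrr φ : IrrCharacter G) : G → ℂ) = Cfsg.charDegree (φ : G → ℂ) := by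
    intro φ
    show ⌊(conj ((φ : G → ℂ) 1)).re⌋₊ = ⌊((φ : G → ℂ) 1).re⌋₊
    rw [Complex.conj_re]
  have hM' := hM.2.1
  obtain ⟨T, hT⟩ := exists_free_sum_eq p M hM U hU
  obtain ⟨a, ha⟩ := hfac
  have hgood : ∀ φ : IrrCharacter G,
      (Nat.card G).factorization p ≤ (Cfsg.charDegree (φ : G → ℂ)).factorization p →
      (∃ S, ∀ g, Ideal.Quotient.mk M (cosetSum U φ g) = a g * S) ∧
      (∃ S, ∀ g, Ideal.Quotient.mk M (cosetSum U (H26.conjIrr φ) g) = a g * S) := fun φ hφ =>
    ⟨ha φ (hvan φ hφ) hφ, ha _ (hvan _ (hconj φ ▸ hφ)) (hconj φ ▸ hφ)⟩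
  obtain ⟨⟨S, hS⟩, S', hS'⟩ := hgood χ hχ
  obtain ⟨⟨R, hR⟩, R', hR'⟩ := hgood ψ hψ
  by_contra hne
  set c := ∑ g ∈ T, a g * a g with hc
  have hsum : ∀ (X Y : IrrCharacter G) (s t : AlgInt ⧸ M),
      (∀ g, Ideal.Quotient.mk M (cosetSum U X g) = a g * s) →
      (∀ g, Ideal.Quotient.mk M (cosetSum U (H26.conjIrr Y) g) = a g * t) →
      (∀ x : G, p ∣ orderOf x → (Y : G → ℂ) x = 0) →
      c * (s * t) = if X = Y then (U.index : AlgInt ⧸ M) else 0 := by
    intro X Y s t hs ht hY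
    rw [← hT X Y hY, hc, Finset.sum_mul]
    exact Finset.sum_congr rfl fun g _ => by rw [hs, ht]; ring
  have hi : (U.index : AlgInt ⧸ M) ≠ 0 := by
    rw [← map_natCast (Ideal.Quotient.mk M), Ne, Ideal.Quotient.eq_zero_iff_mem]
    exact fun h => hidx ((H40.natCast_mem_iff hM).1 h)
  let _ := Ideal.Quotient.field M
  have h1 := hsum χ χ S S' hS hS' (hvan χ hχ)
  have h2 := hsum ψ ψ R R' hR hR' (hvan ψ hψ)
  have h3 := hsum χ ψ S R' hS hR' (hvan ψ hψ)
  rw [if_pos rfl] at h1 h2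
  rw [if_neg hne, mul_eq_zero, mul_eq_zero] at h3
  rcases h3 with h | h | h
  · exact hi (by rw [← h1, h, zero_mul])
  · exact hi (by rw [← h1, h, zero_mul, mul_zero])
  · exact hi (by rw [← h2, h, mul_zero, mul_zero])

end Cfsg.Agent.H42.DZU
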