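import Cfsg.Agent.H42.BlockSpan
import Cfsg.Agent.H40.BlockDefect

/-!
# Full defect blocks for the prime two that are stable under inversion
-/

set_option autoImplicit false

open scoped ComplexConjugate

namespace Cfsg.Agent.H42

universe u

variable {G : Type u} [Group G] [Finite G] {M : Ideal Cfsg.AlgInt}
  {B : Set (Cfsg.IrrCharacter G)}

open scoped Classical in
/-- Coefficients of the idempotent are symmetric under inversion when the block is. -/
theorem blockCoeff_inv_of_stable (σ : Cfsg.IrrCharacter G → Cfsg.IrrCharacter G)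
    (hσB : ∀ χ ∈ B, σ χ ∈ B) (hinj : Set.InjOn σ B) {g : G}
    (h1 : ∀ χ ∈ B, (σ χ : G → ℂ) 1 = (χ : G → ℂ) 1)
    (hg : ∀ χ ∈ B, (σ χ : G → ℂ) g = (χ : G → ℂ) g⁻¹) :
    Cfsg.blockCoeff B g⁻¹ = Cfsg.blockCoeff B g := by
  have := Fintype.ofFinite G
  rw [H40.blockCoeff_eq_sum, H40.blockCoeff_eq_sum]
  congr 1
  set s := Finset.univ.filter (· ∈ B)
  have hs : ∀ χ, χ ∈ s ↔ χ ∈ B := fun χ => by simp [s]
  have himg : s.image σ = s := by
    refine Finset.eq_of_subset_of_card_le ?_ ?_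
    · intro χ hχ
      obtain ⟨ψ, hψ, rfl⟩ := Finset.mem_image.1 hχ
      exact (hs _).2 (hσB ψ ((hs ψ).1 hψ))
    · rw [Finset.card_image_of_injOn fun a ha b hb => hinj ((hs a).1 ha) ((hs b).1 hb)]
  conv_rhs => rw [← himg]
  rw [Finset.sum_image fun a ha b hb => hinj ((hs a).1 ha) ((hs b).1 hb)]
  refine Finset.sum_congr rfl fun χ hχ => ?_
  rw [h1 χ ((hs χ).1 hχ), hg χ ((hs χ).1 hχ)]

open scoped Classical in
/-- A block of full defect for the prime two with symmetric coefficients is principal. -/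
theorem eq_principalBlock_of_full_defect (hM : Cfsg.IsPModular 2 M) (hB : Cfsg.IsPBlock M B)
    (hdef : Cfsg.blockDefect 2 B = (Nat.card G).factorization 2)
    (hsym : ∀ g : G, ¬ 2 ∣ orderOf g → Cfsg.blockCoeff B g⁻¹ = Cfsg.blockCoeff B g) :
    B = Cfsg.principalBlock M G := by
  have : Fact (Nat.Prime 2) := ⟨Nat.prime_two⟩
  have := hM.2.1
  have := Fintype.ofFinite G
  have := H41.IsPModular.charP hM
  by_contra hne
  rw [H41.principalBlock_eq] at hne
  have h1B : (H26.oneIrr G : Cfsg.IrrCharacter G) ∉ B := fun h => hne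
    (H41.eq_blockOf_of_mem hB h)
  let F : G → H41.localRing M := fun x => ⟨Cfsg.blockCoeff B x, H41.blockCoeff_mem hB x⟩
  let f : G → H41.ResField M := fun x => H41.res M (F x)
  have hsum : ∑ x, f x = 0 := by
    have h := H40.sum_blockCoeff_mul_irr B (H26.oneIrr G) 1
    simp only [H26.oneIrr_val, mul_one, if_neg h1B] at h
    have hF : ∑ x, F x = 0 := Subtype.ext (by rw [AddSubmonoidClass.coe_finsetSum]; exact h)
    have h2 := congrArg (H41.res M) hF
    rw [map_sum, map_zero] at h2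
    exact h2
  have hsing : ∀ x : G, 2 ∣ orderOf x → f x = 0 := by
    intro x hx
    by_contra hfx
    refine H40.not_dvd_orderOf_of_coeffUnit hM hB ⟨H41.blockCoeff_mem hB x, fun hI => hfx ?_⟩ hx
    exact (H41.memLocalIdeal_coe_iff _).1 hI
  have hrest : ∑ x ∈ Finset.univ.erase (1 : G), f x = 0 := by
    refine Finset.sum_involution (fun x _ => x⁻¹) (fun x _ => ?_) (fun x hx hfx he => ?_)
      (fun x hx => ?_) (fun x _ => inv_inv x)
    · by_cases hx2 : 2 ∣ orderOf x
      · rw [hsing x hx2, hsing x⁻¹ (by rwa [orderOf_inv]), add_zero]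
      · have : f x⁻¹ = f x := congrArg (H41.res M) (Subtype.ext (hsym x hx2) : F x⁻¹ = F x)
        rw [this]
        exact CharTwo.add_self_eq_zero _
    · refine hfx (hsing x ?_)
      have h2 : orderOf x ∣ 2 := orderOf_dvd_of_pow_eq_one (by
        rw [sq]; nth_rewrite 2 [← he]; exact mul_inv_cancel x)
      rcases (Nat.dvd_prime Nat.prime_two).1 h2 with h3 | h3
      · exact absurd (orderOf_eq_one_iff.1 h3) (Finset.mem_erase.1 hx).1
      · exact h3 ▸ dvd_rfl
    · exact Finset.mem_erase.2 ⟨inv_ne_one.2 (Finset.mem_erase.1 hx).1, Finset.mem_univ _⟩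
  rw [← Finset.add_sum_erase _ _ (Finset.mem_univ (1 : G)), hrest, add_zero] at hsum
  set S := ∑ χ ∈ blockFinset B, Cfsg.charDegree (χ : G → ℂ) ^ 2 with hS
  have hv := factorization_sum_sq_degree hM hB
  rw [← hS, hdef] at hv
  have hS0 : S ≠ 0 := by
    obtain ⟨χ, hχ⟩ := H41.IsPBlock.nonempty hB
    exact (Finset.sum_pos (fun ξ _ => pow_pos (charDegree_pos ξ) 2)
      ⟨χ, mem_blockFinset.2 hχ⟩).ne'
  have heq : (S : ℂ) = (Nat.card G : ℂ) * Cfsg.blockCoeff B 1 := by
    rw [H40.blockCoeff_eq_sum, ← mul_assoc,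
      mul_inv_cancel₀ (Nat.cast_ne_zero.2 Nat.card_pos.ne'), one_mul, hS]
    push_cast [blockFinset]
    refine Finset.sum_congr rfl fun χ _ => ?_
    rw [irr_one_eq, Complex.conj_natCast, sq]
  obtain ⟨-, hiff⟩ := H40.factorization_le_of_div_mem hM hS0 Nat.card_pos.ne'
    (H41.blockCoeff_mem hB 1) heq
  have hlt := hiff.1 ((H41.memLocalIdeal_coe_iff ⟨_, H41.blockCoeff_mem hB 1⟩).2 hsum)
  omega

end Cfsg.Agent.H42
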