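import Cfsg.Agent.H42.DefectZeroUnique
import Cfsg.Agent.H42.CharpolyFibre
import Cfsg.Agent.H66.ClassCount
import Cfsg.Agent.H66.Pairing
import Cfsg.Agent.H1.Orders
import Cfsg.Agent.H2.St.SLData
import Cfsg.Agent.H40.PPart
import Cfsg.Agent.H41.LocalRing

/-!
# The defect zero character of `SL_n` in the defining characteristic is unique
-/

set_option autoImplicit false

namespace Cfsg.Agent.H42.SLDZ

open Cfsg Cfsg.Agent.H42

variable {F : Type*} [Field F] {n : ℕ}

/-- The element attached to strictly upper entries. -/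
noncomputable def uElt (x : Fibre.Pos n → F) : Matrix.SpecialLinearGroup (Fin n) F :=
  ⟨Fibre.uMat x, Fibre.det_uMat x⟩

/-- The upper unitriangular group. -/
def Uni (M : ℕ) (F : Type*) [Field F] : Subgroup (Matrix.SpecialLinearGroup (Fin (M + 1)) F) :=
  (H2.St.slData M F).uni

/-- The unitriangular group is parametrised by the strictly upper entries. -/
noncomputable def uniEquiv (M : ℕ) (F : Type*) [Field F] :
    (Fibre.Pos (M + 1) → F) ≃ Uni M F where
  toFun x := ⟨uElt x, fun i j (hij : j < i) => by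
      show Fibre.uMat x i j = 0
      simp [Fibre.uMat, not_lt.2 hij.le, hij.ne'], fun i => by
      show Fibre.uMat x i i = 1
      simp [Fibre.uMat]⟩
  invFun u a := ((u : Matrix.SpecialLinearGroup (Fin (M + 1)) F) : Matrix _ _ F) a.1.1 a.1.2
  left_inv x := by
    funext a
    show Fibre.uMat x a.1.1 a.1.2 = x a
    simp [Fibre.uMat, a.2]
  right_inv u := by
    apply Subtype.ext
    apply Subtype.ext
    ext i j
    show Fibre.uMat (fun a : Fibre.Pos (M + 1) => ((u : Matrix.SpecialLinearGroup (Fin (M + 1)) F) : Matrix _ _ F) a.1.1 a.1.2) i j = _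
    simp only [Fibre.uMat, Matrix.of_apply]
    split_ifs with h1 h2
    · rfl
    · subst h2; exact (u.2.2 i).symm
    · exact (u.2.1 (lt_of_le_of_ne (not_lt.1 h1) (Ne.symm h2))).symm

theorem isPGroup_uni (p : ℕ) [Fact p.Prime] [CharP F p] (M : ℕ) : IsPGroup p (Uni M F) :=
  (H2.St.slData M F).uni_isPGroup p

theorem not_dvd_index_uni [Fintype F] (p : ℕ) [Fact p.Prime] [CharP F p] (M : ℕ) :
    ¬ p ∣ (Uni M F).index := by
  set q := Fintype.card F with hq
  set N := ∑ i : Fin (M + 1), (i : ℕ) with hN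
  have hcard : Nat.card (Uni M F) = q ^ N := by
    rw [← Nat.card_congr (uniEquiv M F), Nat.card_fun, Nat.card_eq_fintype_card (α := F),
      Nat.card_eq_fintype_card, Fibre.card_pos]
  have hq1 : 1 < q := Fintype.one_lt_card
  have hpq : p ∣ q := by
    obtain ⟨f, -, hf⟩ := FiniteField.card F p
    rw [hq, hf]
    exact dvd_pow_self p f.pos.ne'
  have h := H1.sub_one_mul_card_SL (F := F) hq.symm (M + 1) (Nat.succ_pos M)
  rw [← (Uni M F).card_mul_index, hcard,
    show ∏ i : Fin (M + 1), (q ^ (M + 1) - q ^ (i : ℕ)) =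
      q ^ N * ∏ i : Fin (M + 1), (q ^ (M + 1 - (i : ℕ)) - 1) by
      rw [hN, ← Finset.prod_pow_eq_pow_sum, ← Finset.prod_mul_distrib]
      refine Finset.prod_congr rfl fun i _ => ?_
      rw [Nat.mul_sub, mul_one, ← pow_add, Nat.add_sub_cancel' i.2.le],
    mul_left_comm, Nat.mul_right_inj (pow_pos (by omega) N).ne'] at h
  intro hd
  have h1 : p ∣ ∏ i : Fin (M + 1), (q ^ (M + 1 - (i : ℕ)) - 1) := h ▸ dvd_mul_of_dvd_right hd _
  obtain ⟨i, -, hi⟩ := ((Fact.out : p.Prime).prime.dvd_finsetProd_iff _).1 h1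
  have h2 : p ∣ q ^ (M + 1 - (i : ℕ)) := dvd_pow hpq (by have := i.2; omega)
  have h3 := Nat.dvd_sub h2 hi
  rw [Nat.sub_sub_self (Nat.one_le_pow _ _ (by omega))] at h3
  exact (Fact.out : p.Prime).not_dvd_one h3

variable [Fintype F] (p : ℕ) [Fact p.Prime] [CharP F p]

omit [Fact p.Prime] in
/-- An element has the characteristic polynomial of its `p'`-part. -/
theorem charpoly_eq_of_isPPart {g x y : Matrix.SpecialLinearGroup (Fin n) F} (hxy : x * y = g)
    (hc : Commute x y) {j : ℕ} (hx : orderOf x = p ^ j) :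
    (g : Matrix (Fin n) (Fin n) F).charpoly = (y : Matrix (Fin n) (Fin n) F).charpoly := by
  obtain ⟨f, -, hf⟩ := FiniteField.card F p
  have hpow : g ^ Fintype.card F ^ j = y ^ Fintype.card F ^ j := by
    have h1 : x ^ Fintype.card F ^ j = 1 := by
      apply orderOf_dvd_iff_pow_eq_one.1
      rw [hx, hf, ← pow_mul]
      exact pow_dvd_pow p (Nat.le_mul_of_pos_left j f.pos)
    rw [← hxy, hc.mul_pow, h1, one_mul]
  rw [← H66.charpoly_pow_card_pow (g : Matrix (Fin n) (Fin n) F) j,
    ← H66.charpoly_pow_card_pow (y : Matrix (Fin n) (Fin n) F) j,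
    show (g : Matrix (Fin n) (Fin n) F) ^ Fintype.card F ^ j = _ from
      (Matrix.SpecialLinearGroup.coe_pow g _).symm.trans
        ((congrArg (fun a : Matrix.SpecialLinearGroup (Fin n) F => (a : Matrix (Fin n) (Fin n) F)) hpow).trans
          (Matrix.SpecialLinearGroup.coe_pow y _))]

/-- The middle coefficients of the characteristic polynomial. -/
noncomputable def coeffs (g : Matrix.SpecialLinearGroup (Fin n) F) : Fin (n - 1) → F :=
  fun j => (g : Matrix (Fin n) (Fin n) F).charpoly.coeff ((j : ℕ) + 1)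

omit [Fintype F] in
theorem charpoly_eq_of_coeffs (g h : Matrix.SpecialLinearGroup (Fin n) F) (e : coeffs g = coeffs h) :
    (g : Matrix (Fin n) (Fin n) F).charpoly = (h : Matrix (Fin n) (Fin n) F).charpoly := by
  ext k
  rcases Nat.eq_zero_or_pos k with rfl | hk
  · have hd : ∀ a : Matrix.SpecialLinearGroup (Fin n) F,
        (a : Matrix (Fin n) (Fin n) F).charpoly.coeff 0 = (-1) ^ n := by
      intro a
      have h1 := Matrix.det_eq_sign_charpoly_coeff (a : Matrix (Fin n) (Fin n) F)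
      rw [a.2, Fintype.card_fin] at h1
      calc (a : Matrix (Fin n) (Fin n) F).charpoly.coeff 0
          = ((-1) ^ n * (-1) ^ n) * (a : Matrix (Fin n) (Fin n) F).charpoly.coeff 0 := by
            rw [← mul_pow]; simp
        _ = _ := by rw [mul_assoc, ← h1, mul_one]
    rw [hd, hd]
  rcases lt_trichotomy k n with hkn | rfl | hkn
  · have := congrFun e ⟨k - 1, by omega⟩
    simpa [coeffs, Nat.sub_add_cancel hk] using this
  · have hm : ∀ a : Matrix.SpecialLinearGroup (Fin k) F,
        (a : Matrix (Fin k) (Fin k) F).charpoly.coeff k = 1 := fun a => by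
      have h1 := (Matrix.charpoly_monic (a : Matrix (Fin k) (Fin k) F)).coeff_natDegree
      rwa [Matrix.charpoly_natDegree_eq_dim, Fintype.card_fin] at h1
    rw [hm, hm]
  · rw [Polynomial.coeff_eq_zero_of_natDegree_lt, Polynomial.coeff_eq_zero_of_natDegree_lt] <;>
      rwa [Matrix.charpoly_natDegree_eq_dim, Fintype.card_fin]

section Values

variable {p} {G : Type*} [Group G] [Fintype G] {M : Ideal AlgInt}

omit [Fact p.Prime] [Fintype F] [CharP F p] in
/-- A defect zero character vanishes modulo `M` at elements commuting with an element of order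
divisible by `p`. -/
theorem mk_valA_eq_zero [Fact p.Prime] (hM : IsPModular p M) (χ : IrrCharacter G)
    (hχ : (Nat.card G).factorization p ≤ (Cfsg.charDegree (χ : G → ℂ)).factorization p) (y : G)
    (hy : p ∣ Nat.card (Subgroup.centralizer ({y} : Set G))) :
    Ideal.Quotient.mk M (DZU.valA χ y) = 0 := by
  obtain ⟨r, ρ, hρ, e⟩ := χ.2
  have := hρ
  have := hM.2.1
  have hw := H25.isIntegral_classSize_mul_char_div ρ y
  rw [Module.finrank_fin_fun, e] at hw
  set w : AlgInt := ⟨_, (mem_integralClosure_iff ℤ ℂ).2 hw⟩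
  have hr : Cfsg.charDegree (χ : G → ℂ) = r := charDegree_of_eq_nat (by
    rw [← e, ρ.char_one, Module.finrank_fin_fun])
  have hr0 : r ≠ 0 := by
    have := H25.finrank_pos_of_isIrreducible ρ
    rw [Module.finrank_fin_fun] at this
    omega
  obtain ⟨d', hd'⟩ : p ^ (Nat.card G).factorization p ∣ r :=
    (pow_dvd_pow p (hr ▸ hχ)).trans (Nat.ordProj_dvd _ p)
  set a := (Nat.card G).factorization p
  set M0 := Nat.card G / p ^ a with hM0
  set C := Subgroup.centralizer ({y} : Set G)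
  have hG : Nat.card G = p ^ a * M0 := (Nat.ordProj_mul_ordCompl_eq_self (Nat.card G) p).symm
  have key : (M0 : AlgInt) * DZU.valA χ y = ((Nat.card C : ℕ) : AlgInt) * ((d' : AlgInt) * w) := by
    apply Subtype.ext
    push_cast
    show (M0 : ℂ) * (χ : G → ℂ) y =
      (Nat.card C : ℂ) * ((d' : ℂ) * ((C.index : ℂ) * (χ : G → ℂ) y / (r : ℂ)))
    have h1 : (Nat.card C : ℂ) * (C.index : ℂ) = ((p ^ a : ℕ) : ℂ) * (M0 : ℂ) := by
      rw [← Nat.cast_mul, ← Nat.cast_mul, C.card_mul_index, ← hG]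
    have h2 : (r : ℂ) = ((p ^ a : ℕ) : ℂ) * (d' : ℂ) := by rw [← Nat.cast_mul, ← hd']
    have hd0 : (d' : ℂ) ≠ 0 := Nat.cast_ne_zero.2 fun h => hr0 (by rw [hd', h, mul_zero])
    have hp0 : ((p ^ a : ℕ) : ℂ) ≠ 0 :=
      Nat.cast_ne_zero.2 (pow_ne_zero _ (Fact.out : p.Prime).ne_zero)
    rw [h2]
    field_simp
    linear_combination -(χ : G → ℂ) y * h1
  have h3 := congrArg (Ideal.Quotient.mk M) key
  simp only [map_mul, map_natCast] at h3
  have hC : ((Nat.card C : ℕ) : AlgInt ⧸ M) = 0 := by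
    rw [← map_natCast (Ideal.Quotient.mk M), Ideal.Quotient.eq_zero_iff_mem]
    exact (H40.natCast_mem_iff hM).2 hy
  rw [hC, zero_mul, mul_eq_zero] at h3
  refine h3.resolve_left ?_
  rw [← map_natCast (Ideal.Quotient.mk M), Ideal.Quotient.eq_zero_iff_mem, H40.natCast_mem_iff hM]
  exact Nat.not_dvd_ordCompl Fact.out Nat.card_pos.ne'

end Values

variable {M : Ideal AlgInt}

open scoped Classical in
/-- At most one character of defect zero. -/
theorem eq_of_defect_zero (hn : 2 ≤ n) (hM : IsPModular p M)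
    (χ ψ : IrrCharacter (Matrix.SpecialLinearGroup (Fin n) F))
    (hχ : (Nat.card (Matrix.SpecialLinearGroup (Fin n) F)).factorization p ≤
      (Cfsg.charDegree (χ : Matrix.SpecialLinearGroup (Fin n) F → ℂ)).factorization p)
    (hψ : (Nat.card (Matrix.SpecialLinearGroup (Fin n) F)).factorization p ≤
      (Cfsg.charDegree (ψ : Matrix.SpecialLinearGroup (Fin n) F → ℂ)).factorization p) :
    χ = ψ := by
  obtain ⟨m, rfl⟩ : ∃ m, n = m + 1 := ⟨n - 1, by omega⟩
  have hcp := H41.IsPModular.charP hM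
  have := hM.2.1
  let _ : Fintype (Uni m F) := Fintype.ofFinite _
  refine DZU.eq_of_factor p M hM (Uni m F) (isPGroup_uni p m) (not_dvd_index_uni p m)
    ⟨fun g => ((Finset.univ.filter fun x : Fibre.Pos (m + 1) → F => ∀ j : Fin (m + 1 - 1),
      ((g : Matrix _ _ F) * Fibre.uMat x).charpoly.coeff ((j : ℕ) + 1) = (0 : Fin (m + 1 - 1) → F) j).card :
        AlgInt ⧸ M), fun φ hvan hφ => ?_⟩ χ ψ hχ hψ
  let Φ : (Fin (m + 1 - 1) → F) → AlgInt ⧸ M := fun c =>
    if h : ∃ g : Matrix.SpecialLinearGroup (Fin (m + 1)) F, coeffs g = c then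
      Ideal.Quotient.mk M (DZU.valA φ h.choose) else 0
  have hy : ∀ g : Matrix.SpecialLinearGroup (Fin (m + 1)) F, ∃ y : Matrix.SpecialLinearGroup (Fin (m + 1)) F,
      (orderOf y).Coprime p ∧
      (g : Matrix (Fin (m + 1)) (Fin (m + 1)) F).charpoly = (y : Matrix (Fin (m + 1)) (Fin (m + 1)) F).charpoly ∧
      Ideal.Quotient.mk M (DZU.valA φ g) = Ideal.Quotient.mk M (DZU.valA φ y) := by
    intro g
    obtain ⟨x, y, hxy, hc, ⟨j, hj⟩, hy⟩ := H40.exists_isPPart p g
    refine ⟨y, Nat.Coprime.symm ((Fact.out : p.Prime).coprime_iff_not_dvd.2 hy),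
      charpoly_eq_of_isPPart p hxy hc hj, ?_⟩
    rcases eq_or_ne x 1 with rfl | hx1
    · rw [← hxy, one_mul]
    have hj0 : j ≠ 0 := fun h0 => hx1 (orderOf_eq_one_iff.1 (by rw [hj, h0, pow_zero]))
    have hcop : (orderOf x).Coprime (orderOf y) :=
      hj ▸ Nat.Coprime.pow_left _ ((Fact.out : p.Prime).coprime_iff_not_dvd.2 hy)
    have h1 : p ∣ orderOf g := by
      rw [← hxy, hc.orderOf_mul_eq_mul_orderOf_of_coprime hcop, hj]
      exact dvd_mul_of_dvd_left (dvd_pow_self p hj0) _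
    rw [show DZU.valA φ g = 0 from Subtype.ext (hvan g h1), map_zero,
      mk_valA_eq_zero hM φ hφ y ((hj ▸ dvd_pow_self p hj0 : p ∣ orderOf x).trans ?_)]
    exact orderOf_submonoid
      (⟨x, Subgroup.mem_centralizer_singleton_iff.2 hc.eq⟩ :
        Subgroup.centralizer ({y} : Set (Matrix.SpecialLinearGroup (Fin (m + 1)) F))) ▸ orderOf_dvd_natCard _
  have hΦ : ∀ g : Matrix.SpecialLinearGroup (Fin (m + 1)) F,
      Ideal.Quotient.mk M (DZU.valA φ g) = Φ (coeffs g) := by
    intro g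
    have hex : ∃ g' : Matrix.SpecialLinearGroup (Fin (m + 1)) F, coeffs g' = coeffs g := ⟨g, rfl⟩
    simp only [Φ, dif_pos hex]
    obtain ⟨y, hy1, hy2, hy3⟩ := hy g
    obtain ⟨y', hy1', hy2', hy3'⟩ := hy hex.choose
    rw [hy3, hy3']
    have hcc : IsConj y y' := H66.sl_isConj_of_charpoly_eq p y y' hy1 hy1' (by
      rw [← hy2, ← hy2', charpoly_eq_of_coeffs _ _ hex.choose_spec])
    exact congrArg (Ideal.Quotient.mk M) (Subtype.ext (H26.irr_eq_of_isConj φ hcc))
  refine ⟨∑ c, Φ c, fun g => ?_⟩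
  rw [DZU.cosetSum_eq_sum, map_sum, ← Equiv.sum_comp (uniEquiv m F), Finset.mul_sum,
    Fintype.sum_congr _ _ fun x => hΦ _,
    ← Finset.sum_fiberwise_of_maps_to (g := fun x => coeffs (g * (uniEquiv m F x : Matrix.SpecialLinearGroup _ F)))
      (t := Finset.univ) fun x _ => Finset.mem_univ _]
  refine Finset.sum_congr rfl fun c _ => ?_
  rw [Finset.sum_congr rfl fun x hx => congrArg Φ (Finset.mem_filter.1 hx).2, Finset.sum_const,
    nsmul_eq_mul]
  congr 1
  refine (CharP.natCast_eq_natCast (AlgInt ⧸ M) p).2 ?_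
  refine Eq.trans (congrArg (· % p) ?_) (Fibre.card_charpoly_fibre_modEq p hn _ c 0)
  refine congrArg Finset.card (Finset.filter_congr fun x _ => ?_)
  rw [funext_iff]
  rfl

end Cfsg.Agent.H42.SLDZ
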