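import Cfsg.Prelude.Def_CaseTheorems
import Cfsg.Agent.H70.BorelTitsSL
import Cfsg.Agent.H22.Frobenius
import Cfsg.Agent.H40.PCore

/-!
# Centralisers of radical subgroups of `SL_n` in the defining characteristic
-/

set_option autoImplicit false

namespace Cfsg.Agent.H42.SLRad

open Matrix

variable {F : Type*} [Field F] {n : ℕ}

local notation "SL" => Matrix.SpecialLinearGroup (Fin n) F

/-- A matrix whose `p`-th power is one has determinant one in characteristic `p`. -/
theorem det_eq_one_of_pow (p : ℕ) [Fact p.Prime] [CharP F p] {A : Matrix (Fin n) (Fin n) F}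
    (h : A ^ p = 1) : A.det = 1 := by
  have h1 : (A.det - 1) ^ p = 0 := by
    rw [sub_pow_char, ← det_pow, h, det_one, one_pow, sub_self]
  exact sub_eq_zero.1 ((pow_eq_zero_iff (Fact.out : p.Prime).ne_zero).1 h1)

/-- `1 + X` has determinant one when `X * X = 0`. -/
theorem det_one_add_of_sq_zero (p : ℕ) [Fact p.Prime] [CharP F p] {X : Matrix (Fin n) (Fin n) F}
    (h : X * X = 0) : (1 + X).det = 1 := by
  refine det_eq_one_of_pow p ?_
  rcases Nat.eq_zero_or_pos n with rfl | hn
  · exact Subsingleton.elim _ _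
  have : Nonempty (Fin n) := ⟨⟨0, hn⟩⟩
  have hX : X ^ p = 0 :=
    pow_eq_zero_of_le (Fact.out : p.Prime).two_le (by rw [sq, h])
  rw [add_pow_char_of_commute (p := p) (Commute.one_left X), one_pow, hX, add_zero]

variable {k : ℕ} (V : Fin (k + 2) → Submodule F (Fin n → F))

/-- The elements centralising the successive quotients of a flag, as a condition. -/
def InU (g : SL) : Prop :=
  ∀ i : Fin (k + 1), ∀ v ∈ V i.succ, (g : Matrix (Fin n) (Fin n) F).mulVec v - v ∈ V (Fin.castSucc i)

variable {V}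

theorem InU.mapsTo {g : SL} (hg : InU V g) (hm : Monotone V) (h0 : V 0 = ⊥) (i : Fin (k + 2))
    {v : Fin n → F} (hv : v ∈ V i) : (g : Matrix (Fin n) (Fin n) F).mulVec v ∈ V i := by
  refine Fin.cases (motive := fun i => v ∈ V i → (g : Matrix (Fin n) (Fin n) F).mulVec v ∈ V i)
    (fun hv => ?_) (fun j hv => ?_) i hv
  · rw [h0, Submodule.mem_bot] at hv ⊢
    rw [hv, Matrix.mulVec_zero]
  · have := add_mem (hm Fin.castSucc_lt_succ.le (hg j v hv)) hv
    rwa [sub_add_cancel] at this

variable (V)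

/-- The unipotent radical of the stabiliser of a flag. -/
def radical [Finite F] (hm : Monotone V) (h0 : V 0 = ⊥) : Subgroup SL :=
  let S : Submonoid SL :=
    { carrier := {g | InU V g}
      one_mem' := fun i v _ => by simp
      mul_mem' := fun {a b} ha hb i v hv => by
        show (((a * b : SL) : Matrix (Fin n) (Fin n) F)).mulVec v - v ∈ _
        rw [Matrix.SpecialLinearGroup.coe_mul, ← Matrix.mulVec_mulVec]
        have h1 := InU.mapsTo ha hm h0 _ (hb i v hv)
        have h2 := add_mem h1 (ha i v hv)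
        rw [Matrix.mulVec_sub] at h2
        simpa using h2 }
  { S with
    inv_mem' := fun {a} ha => by
      have hfin : IsOfFinOrder a := isOfFinOrder_of_finite a
      obtain ⟨m, hm'⟩ : a⁻¹ ∈ Submonoid.powers a := hfin.mem_powers_iff_mem_zpowers.2
        ⟨-1, by simp⟩
      exact hm' ▸ pow_mem (show a ∈ S from ha) m }

variable {V}

theorem mem_radical [Finite F] {hm : Monotone V} {h0 : V 0 = ⊥} {g : SL} :
    g ∈ radical V hm h0 ↔ InU V g := Iff.rfl

/-- The unipotent radical is a `p`-group. -/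
theorem isPGroup_radical [Finite F] (p : ℕ) [Fact p.Prime] [CharP F p] (hm : Monotone V)
    (h0 : V 0 = ⊥) (hl : V (Fin.last (k + 1)) = ⊤) : IsPGroup p (radical (n := n) V hm h0) := by
  intro g
  set A := ((g : SL) : Matrix (Fin n) (Fin n) F)
  have hj : ∀ j : ℕ, ∀ hj : j ≤ k + 1, ∀ v,
      ((A - 1) ^ j).mulVec v ∈ V ⟨k + 1 - j, by omega⟩ := by
    intro j
    induction j with
    | zero =>
      intro _ v
      rw [show (⟨k + 1 - 0, by omega⟩ : Fin (k + 2)) = Fin.last (k + 1) from Fin.ext (by simp), hl]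
      trivial
    | succ j ih =>
      intro hj v
      have h1 := ih (by omega) v
      rw [show (⟨k + 1 - j, by omega⟩ : Fin (k + 2)) = (⟨k + 1 - (j + 1), by omega⟩ : Fin (k + 1)).succ
        from Fin.ext (by simp; omega)] at h1
      have h2 := g.2 _ _ h1
      rw [pow_succ', ← Matrix.mulVec_mulVec, Matrix.sub_mulVec, Matrix.one_mulVec]
      exact h2
  have hnil : (A - 1) ^ (k + 1) = 0 := by
    refine Matrix.ext_iff_mulVec.2 fun v => ?_
    have h1 := hj (k + 1) le_rfl v
    rw [show (⟨k + 1 - (k + 1), by omega⟩ : Fin (k + 2)) = 0 from Fin.ext (by simp), h0,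
      Submodule.mem_bot] at h1
    rw [h1, Matrix.zero_mulVec]
  refine ⟨k + 1, Subtype.ext (Subtype.ext ?_)⟩
  rcases Nat.eq_zero_or_pos n with rfl | hn
  · exact Subsingleton.elim _ _
  have : Nonempty (Fin n) := ⟨⟨0, hn⟩⟩
  have h1 : (A - 1) ^ p ^ (k + 1) = 0 :=
    pow_eq_zero_of_le (Nat.lt_pow_self (Fact.out : p.Prime).one_lt).le hnil
  rw [sub_pow_char_pow_of_commute (p := p) (k + 1) (Commute.one_right A), one_pow, sub_eq_zero] at h1
  rw [SubmonoidClass.coe_pow, Matrix.SpecialLinearGroup.coe_pow]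
  exact h1

/-- The stabiliser of the flag normalises the radical. -/
theorem conj_mem_radical [Finite F] {hm : Monotone V} {h0 : V 0 = ⊥} {g m : SL}
    (hg : g ∈ radical V hm h0)
    (hm' : ∀ i, (V i).map (Matrix.mulVecLin (m : Matrix (Fin n) (Fin n) F)) = V i) :
    m * g * m⁻¹ ∈ radical V hm h0 := by
  intro i v hv
  obtain ⟨w, hw, rfl⟩ : v ∈ (V i.succ).map (Matrix.mulVecLin (m : Matrix (Fin n) (Fin n) F)) :=
    (hm' i.succ).symm ▸ hv
  have h1 := Submodule.mem_map_of_mem (f := Matrix.mulVecLin (m : Matrix (Fin n) (Fin n) F)) (hg i w hw)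
  rw [hm'] at h1
  simp only [Matrix.mulVecLin_apply, Matrix.mulVec_sub, Matrix.mulVec_mulVec] at h1 ⊢
  have e : ((m * g * m⁻¹ : SL) : Matrix (Fin n) (Fin n) F) * (m : Matrix (Fin n) (Fin n) F) =
      (m : Matrix (Fin n) (Fin n) F) * (g : Matrix (Fin n) (Fin n) F) :=
    congrArg (fun a : SL => (a : Matrix (Fin n) (Fin n) F))
      (show m * g * m⁻¹ * m = m * g by group)
  rw [e]
  exact h1

/-- The centraliser of the radical of a proper flag consists of scalars times radical elements. -/
theorem centralizer_radical_le [Finite F] (p : ℕ) [Fact p.Prime] [CharP F p] (hk : 1 ≤ k)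
    (hm : StrictMono V) (h0 : V 0 = ⊥) (hl : V (Fin.last (k + 1)) = ⊤) :
    Subgroup.centralizer (radical (n := n) V hm.monotone h0 : Set SL) ≤
      radical V hm.monotone h0 ⊔ Subgroup.center SL := by
  classical
  intro g hg
  set A := (g : Matrix (Fin n) (Fin n) F)
  set i1 : Fin (k + 2) := ⟨1, by omega⟩
  set ik : Fin (k + 2) := ⟨k, by omega⟩
  have h1k : V i1 ≤ V ik := hm.monotone (Fin.mk_le_mk.2 hk)
  -- commutation with the transvection-type elements
  have hcomm : ∀ (v : Fin n → F) (f : Module.Dual F (Fin n → F)) (i : Fin (k + 2)), 1 ≤ (i : ℕ) →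
      v ∈ V i → (∀ w ∈ V i, f w = 0) → ∀ x, f x • A.mulVec v = f (A.mulVec x) • v := by
    intro v f i hi1 hv hf x
    set X := LinearMap.toMatrix' (f.smulRight v)
    have hX : ∀ y, X.mulVec y = f y • v := fun y => by
      rw [← Matrix.toLin'_apply, Matrix.toLin'_toMatrix']; rfl
    have hXX : X * X = 0 := Matrix.ext_iff_mulVec.2 fun y => by
      rw [← Matrix.mulVec_mulVec, hX, hX, map_smul, hf v hv, smul_zero, zero_smul, Matrix.zero_mulVec]
    let u : SL := ⟨1 + X, det_one_add_of_sq_zero p hXX⟩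
    have hu : u ∈ radical V hm.monotone h0 := by
      intro j w hw
      show (1 + X).mulVec w - w ∈ _
      rw [Matrix.add_mulVec, Matrix.one_mulVec, add_sub_cancel_left, hX]
      rcases le_or_gt j.succ i with hle | hlt
      · rw [hf w (hm.monotone hle hw), zero_smul]; exact zero_mem _
      · refine Submodule.smul_mem _ _ (hm.monotone ?_ hv)
        rw [Fin.lt_def, Fin.val_succ] at hlt
        rw [Fin.le_def, Fin.val_castSucc]
        omega
    have h1 := congrArg (fun a : SL => (a : Matrix (Fin n) (Fin n) F).mulVec x)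
      (Subgroup.mem_centralizer_iff.1 hg u hu)
    simp only [Matrix.SpecialLinearGroup.coe_mul, ← Matrix.mulVec_mulVec] at h1
    change (1 + X).mulVec (A.mulVec x) = A.mulVec ((1 + X).mulVec x) at h1
    simp only [Matrix.add_mulVec, Matrix.one_mulVec, hX, Matrix.mulVec_add, Matrix.mulVec_smul,
      add_right_inj] at h1
    exact h1.symm
  obtain ⟨v0, hv0, hv0ne⟩ : ∃ v0 ∈ V i1, v0 ≠ 0 := by
    refine (Submodule.ne_bot_iff _).1 fun h => ?_
    have := hm (show (0 : Fin (k + 2)) < i1 from Fin.mk_lt_mk.2 Nat.zero_lt_one)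
    rw [h0, h] at this
    exact lt_irrefl _ this
  obtain ⟨x1, hx1⟩ : ∃ x1, x1 ∉ V ik := by
    by_contra h
    push Not at h
    have := hm (show ik < Fin.last (k + 1) from Fin.lt_def.2 (by simp [ik]))
    rw [hl] at this
    exact this.ne (Submodule.eq_top_iff'.2 h)
  obtain ⟨f1, hf1x, hf1⟩ := Submodule.exists_dual_map_eq_bot_of_notMem hx1 inferInstance
  have hf1z : ∀ w ∈ V ik, f1 w = 0 := fun w hw => by
    have := Submodule.mem_map_of_mem (f := f1) hw
    rwa [hf1, Submodule.mem_bot] at this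
  set c := (f1 x1)⁻¹ * f1 (A.mulVec x1)
  have hk' : ∀ v ∈ V ik, A.mulVec v = c • v := fun v hv => by
    have h1 := hcomm v f1 ik (by simpa [ik] using hk) hv hf1z x1
    rw [← inv_smul_smul₀ hf1x (A.mulVec v), h1, smul_smul]
  clear_value c
  have hAinj : ∀ w, A.mulVec w = 0 → w = 0 := fun w hw => by
    have h1 := congrArg (fun B : Matrix (Fin n) (Fin n) F => B.mulVec w)
      (show ((g⁻¹ : SL) : Matrix (Fin n) (Fin n) F) * A = 1 by
        rw [← Matrix.SpecialLinearGroup.coe_mul, inv_mul_cancel, Matrix.SpecialLinearGroup.coe_one])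
    simpa [← Matrix.mulVec_mulVec, hw] using h1.symm
  have hc : c ≠ 0 := fun h => hv0ne (hAinj v0 (by rw [hk' v0 (h1k hv0), h, zero_smul]))
  have him : ∀ x, A.mulVec x - c • x ∈ V i1 := by
    intro x
    refine (Subspace.forall_mem_dualAnnihilator_apply_eq_zero_iff _ _).1 fun f hf => ?_
    have hf' : ∀ w ∈ V i1, f w = 0 := (Submodule.mem_dualAnnihilator f).1 hf
    have h1 := hcomm v0 f i1 (by simp [i1]) hv0 hf' x
    rw [hk' v0 (h1k hv0), smul_smul] at h1
    rw [map_sub, map_smul, ← smul_left_injective F hv0ne h1, smul_eq_mul, mul_comm, sub_self]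
  set B := c⁻¹ • A with hB
  have hBv : ∀ v, B.mulVec v - v = c⁻¹ • (A.mulVec v - c • v) := fun v => by
    rw [hB, Matrix.smul_mulVec, smul_sub, inv_smul_smul₀ hc]
  have hBB : (B - 1) * (B - 1) = 0 := Matrix.ext_iff_mulVec.2 fun v => by
    rw [← Matrix.mulVec_mulVec, Matrix.sub_mulVec, Matrix.one_mulVec, hBv,
      hk' _ (h1k (show (B - 1).mulVec v ∈ V i1 by
        rw [Matrix.sub_mulVec, Matrix.one_mulVec, hBv]
        exact Submodule.smul_mem _ _ (him v))), sub_self, smul_zero, Matrix.zero_mulVec]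
  have hdet : B.det = 1 := by
    have := det_one_add_of_sq_zero p hBB
    rwa [add_sub_cancel] at this
  let u : SL := ⟨B, hdet⟩
  have hu : u ∈ radical V hm.monotone h0 := by
    intro j v hv
    show B.mulVec v - v ∈ _
    rw [hBv]
    refine Submodule.smul_mem _ _ ?_
    rcases Nat.eq_zero_or_pos (j : ℕ) with hj | hj
    · have hvk : v ∈ V ik :=
        h1k (hm.monotone (show j.succ ≤ i1 from Fin.le_def.2 (by simp [i1, hj])) hv)
      rw [hk' v hvk, sub_self]
      exact zero_mem _
    · exact hm.monotone (show i1 ≤ j.castSucc from Fin.le_def.2 (by simp only [i1, Fin.val_castSucc]; omega)) (him v)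
  have hcen : g * u⁻¹ ∈ Subgroup.center SL := by
    rw [Subgroup.mem_center_iff]
    intro h
    apply Subtype.ext
    have e : ((g * u⁻¹ : SL) : Matrix (Fin n) (Fin n) F) = c • (1 : Matrix (Fin n) (Fin n) F) := by
      rw [Matrix.SpecialLinearGroup.coe_mul, show (g : Matrix (Fin n) (Fin n) F) =
        c • (u : Matrix (Fin n) (Fin n) F) from (smul_inv_smul₀ hc A).symm, smul_mul,
        ← Matrix.SpecialLinearGroup.coe_mul, mul_inv_cancel, Matrix.SpecialLinearGroup.coe_one]
    rw [Matrix.SpecialLinearGroup.coe_mul h, Matrix.SpecialLinearGroup.coe_mul (g * u⁻¹), e,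
      Matrix.mul_smul, Matrix.smul_mul, Matrix.one_mul, Matrix.mul_one]
  rw [sup_comm]
  simpa using Subgroup.mul_mem_sup hcen hu

/-- Non-trivial radical `p`-subgroups of `SL_n` have small centralisers. -/
theorem centralizer_le_of_radical [Fintype F] (p : ℕ) [Fact p.Prime] [CharP F p] (P : Subgroup SL)
    (hP : IsPGroup p P) (hne : P ≠ ⊥)
    (hrad : (Cfsg.pCore p (Subgroup.normalizer (P : Set SL))).map
      (Subgroup.normalizer (P : Set SL)).subtype = P) :
    Subgroup.centralizer (P : Set SL) ≤ P ⊔ Subgroup.center SL := by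
  obtain ⟨k, V, hk, hm, h0, hl, hN, hU⟩ := H70.borel_tits_sl p P hP hne
  set U := radical (n := n) V hm.monotone h0 with hUdef
  have hPU : P ≤ U := fun u hu => hU u hu
  have hUp := isPGroup_radical (n := n) p hm.monotone h0 hl
  suffices h : P = U by rw [h]; exact centralizer_radical_le p hk hm h0 hl
  by_contra hne'
  have hlt := H22.lt_inf_normalizer_of_lt hUp (lt_of_le_of_ne hPU hne')
  refine hlt.not_ge fun x hx => ?_
  obtain ⟨hxU, hxN⟩ := Subgroup.mem_inf.1 hx
  rw [← hrad]
  refine ⟨⟨x, hxN⟩, ?_, rfl⟩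
  have hn : (U.subgroupOf (Subgroup.normalizer (P : Set SL))).Normal :=
    ⟨fun a ha b => Subgroup.mem_subgroupOf.2 (conj_mem_radical (Subgroup.mem_subgroupOf.1 ha)
      (hN b b.2))⟩
  exact H40.le_pCore hn (hUp.comap_subtype) (Subgroup.mem_subgroupOf.2 hxU)

end Cfsg.Agent.H42.SLRad
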