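import Cfsg.Agent.H42.DefectValues
import Cfsg.Agent.H42.ClassMult
import Cfsg.Agent.H40.InducedBlocks
import Mathlib.LinearAlgebra.Matrix.NonsingularInverse

/-!
# Classes with a common defect group that are separated by `p`-elements
-/

set_option autoImplicit false

open scoped ComplexConjugate

namespace Cfsg.Agent.H42

universe u

variable {G : Type u} [Group G] [Fintype G]

/-- The reduced central character vector at a family of elements. -/
noncomputable def omegaVec (M : Ideal Cfsg.AlgInt) [M.IsMaximal] {r : ℕ} (x : Fin r → G)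
    (χ : Cfsg.IrrCharacter G) : Fin r → H41.ResField M :=
  fun j => H41.omegaBar M χ (H41.classSumZ (H41.ResField M) (x j))

/-- The orthogonality relation obtained by counting pairs of conjugates that differ by an element
of a Sylow subgroup. -/
theorem sum_separated {p : ℕ} [Fact p.Prime] {r : ℕ} (x : Fin r → G)
    (hx : ∀ i j : Fin r, IsConj (x i) (x j) → i = j)
    (hsep : ∀ i j : Fin r, ∀ g h : G, IsConj (x i) g → IsConj (x j) h → ∀ k : ℕ, 0 < k →
      orderOf (g * h⁻¹) ≠ p ^ k) (P : Sylow p G) [Fintype (P : Subgroup G)] (i j : Fin r) :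
    ∑ χ : Cfsg.IrrCharacter G, conj ((χ : G → ℂ) (x i)) *
      Cfsg.classInner (fun u : (P : Subgroup G) => (χ : G → ℂ) u)
        (H26.oneIrr (P : Subgroup G)).1 * Cfsg.centralChar (χ : G → ℂ) (x j) =
      if i = j then ((Nat.card G / p ^ (Nat.card G).factorization p : ℕ) : ℂ) else 0 := by
  classical
  have hcount : ∀ u : (P : Subgroup G), (pairCount (x i) (x j)⁻¹ (u : G) : ℂ) =
      if u = 1 ∧ i = j then ((Subgroup.centralizer ({x i} : Set G)).index : ℂ) else 0 := by
    intro u
    split_ifs with h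
    · obtain ⟨rfl, rfl⟩ := h
      rw [pairCount, H25.index_centralizer_eq_card_class, Nat.cast_inj]
      refine Nat.card_congr (Equiv.subtypeEquivRight fun y => ?_)
      rw [OneMemClass.coe_one, mul_one]
      refine ⟨fun h => h.1.symm, fun h => ⟨h.symm, ?_⟩⟩
      obtain ⟨c, hc⟩ := isConj_iff.1 h.symm
      exact isConj_iff.2 ⟨c, by rw [← hc]; group⟩
    · rw [pairCount, Nat.cast_eq_zero, Nat.card_eq_zero]
      refine Or.inl (isEmpty_subtype _ |>.2 fun y ⟨hy1, hy2⟩ => h ?_)
      obtain ⟨c, hc⟩ := isConj_iff.1 hy2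
      have hy3 : IsConj (x j) ((u : G)⁻¹ * y) := isConj_iff.2 ⟨c⁻¹, by
        have : (u : G)⁻¹ * y = (y⁻¹ * (u : G))⁻¹ := by group
        rw [this, ← inv_inj, inv_inv, ← inv_inv (x j), ← hc]
        group⟩
      have hu : orderOf (y * ((u : G)⁻¹ * y)⁻¹) = orderOf u := by
        rw [show y * ((u : G)⁻¹ * y)⁻¹ = (u : G) by group, Subgroup.orderOf_coe]
      obtain ⟨k, hk⟩ := IsPGroup.iff_orderOf.1 P.2 u
      rcases Nat.eq_zero_or_pos k with rfl | hk0
      · rw [pow_zero, orderOf_eq_one_iff] at hk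
        subst hk
        simp only [OneMemClass.coe_one, inv_one, one_mul] at hy3
        exact ⟨rfl, hx i j (hy1.symm.trans hy3.symm)⟩
      · exact absurd (hu.trans hk) (hsep i j y _ hy1.symm hy3 k hk0)
  have hsum := Finset.sum_congr rfl (fun u (_ : u ∈ (Finset.univ : Finset (P : Subgroup G))) =>
    (pairCount_formula (x i) (x j)⁻¹ (u : G)).symm.trans (hcount u))
  rw [← Finset.mul_sum, Finset.sum_comm] at hsum
  have hright : ∑ u : (P : Subgroup G),
      (if u = 1 ∧ i = j then ((Subgroup.centralizer ({x i} : Set G)).index : ℂ) else 0) =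
      if i = j then ((Subgroup.centralizer ({x i} : Set G)).index : ℂ) else 0 := by
    by_cases hij : i = j <;> simp [hij]
  rw [hright, H40.centralizer_singleton_inv] at hsum
  have hterm : ∀ χ : Cfsg.IrrCharacter G, ∑ u : (P : Subgroup G),
      conj ((χ : G → ℂ) (x i)) * conj ((χ : G → ℂ) (x j)⁻¹) * (χ : G → ℂ) u / (χ : G → ℂ) 1 =
      conj ((χ : G → ℂ) (x i)) * ((χ : G → ℂ) (x j) / (χ : G → ℂ) 1) *
        ((p ^ (Nat.card G).factorization p : ℕ) : ℂ) *
        Cfsg.classInner (fun u : (P : Subgroup G) => (χ : G → ℂ) u)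
          (H26.oneIrr (P : Subgroup G)).1 := by
    intro χ
    rw [Cfsg.classInner, P.card_eq_multiplicity, H26.irr_inv, Complex.conj_conj,
      ← mul_assoc, mul_assoc _ ((_ : ℕ) : ℂ), mul_inv_cancel₀
        (Nat.cast_ne_zero.2 (pow_ne_zero _ (Fact.out : p.Prime).ne_zero)), mul_one, Finset.mul_sum]
    refine Finset.sum_congr rfl fun u _ => ?_
    rw [H26.oneIrr_val, map_one]
    ring
  simp only [hterm] at hsum
  have hi0 : ((Subgroup.centralizer ({x i} : Set G)).index : ℂ) ≠ 0 :=
    Nat.cast_ne_zero.2 (Subgroup.centralizer _).index_ne_zero_of_finite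
  have hG0 : (Nat.card G : ℂ) ≠ 0 := Nat.cast_ne_zero.2 Nat.card_pos.ne'
  have hP0 : ((p ^ (Nat.card G).factorization p : ℕ) : ℂ) ≠ 0 :=
    Nat.cast_ne_zero.2 (pow_ne_zero _ (Fact.out : p.Prime).ne_zero)
  have hw : ((p ^ (Nat.card G).factorization p : ℕ) : ℂ) *
      ((Nat.card G / p ^ (Nat.card G).factorization p : ℕ) : ℂ) = (Nat.card G : ℂ) := by
    exact_mod_cast Nat.ordProj_mul_ordCompl_eq_self (Nat.card G) p
  refine mul_left_cancel₀ (mul_ne_zero (mul_ne_zero hi0 (inv_ne_zero hG0)) hP0) ?_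
  rw [Finset.mul_sum]
  refine Eq.trans ?_ (hsum.trans ?_)
  · rw [Finset.mul_sum]
    refine Finset.sum_congr rfl fun χ _ => ?_
    rw [Cfsg.centralChar]
    ring
  · split_ifs with hij
    · rw [mul_assoc, hw, mul_assoc, inv_mul_cancel₀ hG0, mul_one]
    · rw [mul_zero]

end Cfsg.Agent.H42
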