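import Cfsg.Agent.H42.Arith
import Cfsg.Agent.H45.Galois

/-!
# Counting the zeros of an irreducible character
-/

set_option autoImplicit false

namespace Cfsg.Agent.H42

variable {G : Type*} [Group G]

/-- If a character value has maximal absolute value, so have the values at all powers. -/
theorem norm_pow_eq_degree [Finite G] {χ : G → ℂ} (hχ : Cfsg.IsCharacter G χ) {g : G}
    (h : ‖χ g‖ = (Cfsg.charDegree χ : ℝ)) (k : ℕ) : ‖χ (g ^ k)‖ = (Cfsg.charDegree χ : ℝ) := by
  obtain ⟨n, ρ, rfl⟩ := hχ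
  rw [charDegree_of_eq_nat ρ.char_one] at h ⊢
  have h1 := H25.apply_eq_smul_id_of_norm_eq ρ g h
  set c := ρ.character g / (Module.finrank ℂ (Fin n → ℂ) : ℂ)
  refine H25.norm_char_eq_of_scalar ρ (g ^ k) (c ^ k) ?_
  rw [map_pow, h1, smul_pow]
  rw [show (LinearMap.id : Module.End ℂ (Fin n → ℂ)) = 1 from rfl, one_pow]

/-- The sum of the squared absolute values of an irreducible character is the group order. -/
theorem sum_norm_sq [Fintype G] (χ : Cfsg.IrrCharacter G) :
    ∑ g : G, ‖(χ : G → ℂ) g‖ ^ 2 = (Nat.card G : ℝ) := by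
  classical
  have h := H26.classInner_irr χ χ
  rw [if_pos rfl, Cfsg.classInner, inv_mul_eq_one₀ (Nat.cast_ne_zero.2 Nat.card_pos.ne')] at h
  apply Complex.ofReal_injective
  rw [Complex.ofReal_natCast, h, Complex.ofReal_sum]
  exact Finset.sum_congr rfl fun g _ => by
    rw [Complex.mul_conj, Complex.normSq_eq_norm_sq]

/-- The lower bound for the number of zeros of an irreducible character. -/
theorem zeros_lower_bound [Fintype G] [DecidableEq G] (χ : Cfsg.IrrCharacter G) :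
    (Cfsg.charDegree (χ : G → ℂ) ^ 2 - 1) *
        (Finset.univ.filter (fun g : G =>
          ‖(χ : G → ℂ) g‖ = (Cfsg.charDegree (χ : G → ℂ) : ℝ))).card ≤
      (Finset.univ.filter (fun g : G => (χ : G → ℂ) g = 0)).card ∧
    ((∀ g : G, ‖(χ : G → ℂ) g‖ = 0 ∨ ‖(χ : G → ℂ) g‖ = 1 ∨
        ‖(χ : G → ℂ) g‖ = (Cfsg.charDegree (χ : G → ℂ) : ℝ)) →
      (Cfsg.charDegree (χ : G → ℂ) ^ 2 - 1) *
        (Finset.univ.filter (fun g : G =>
          ‖(χ : G → ℂ) g‖ = (Cfsg.charDegree (χ : G → ℂ) : ℝ))).card =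
      (Finset.univ.filter (fun g : G => (χ : G → ℂ) g = 0)).card) := by
  set d := Cfsg.charDegree (χ : G → ℂ) with hd
  have hdpos : 0 < d := charDegree_pos χ
  have hχ := H26.irr_isCharacter χ
  set A := Finset.univ.filter (fun g : G => ‖(χ : G → ℂ) g‖ = (d : ℝ)) with hA
  set N := Finset.univ.filter (fun g : G => (χ : G → ℂ) g = 0) with hN
  set S := Finset.univ.filter
    (fun g : G => ‖(χ : G → ℂ) g‖ ≠ (d : ℝ) ∧ (χ : G → ℂ) g ≠ 0) with hS
  have hAN : Disjoint A N := Finset.disjoint_filter.2 fun g _ h1 h2 => by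
    rw [h2, norm_zero] at h1
    exact hdpos.ne (by exact_mod_cast h1)
  have hu : Finset.univ = (A ∪ N) ∪ S := by
    ext g
    simp only [hA, hN, hS, Finset.mem_union, Finset.mem_filter, Finset.mem_univ, true_and, true_iff]
    tauto
  have hdis : Disjoint (A ∪ N) S := by
    rw [Finset.disjoint_left]
    intro g hg hgS
    simp only [hA, hN, hS, Finset.mem_union, Finset.mem_filter, Finset.mem_univ, true_and] at hg hgS
    exact hg.elim hgS.1 hgS.2
  have hcard : (Nat.card G : ℝ) = A.card + N.card + S.card := by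
    rw [Nat.card_eq_fintype_card, ← Finset.card_univ, hu, Finset.card_union_of_disjoint hdis,
      Finset.card_union_of_disjoint hAN]
    push_cast; ring
  have hsum : (Nat.card G : ℝ) = (d : ℝ) ^ 2 * A.card + ∑ g ∈ S, ‖(χ : G → ℂ) g‖ ^ 2 := by
    rw [← sum_norm_sq χ, hu, Finset.sum_union hdis, Finset.sum_union hAN,
      Finset.sum_congr rfl (fun g (hg : g ∈ A) =>
        show ‖(χ : G → ℂ) g‖ ^ 2 = (d : ℝ) ^ 2 by rw [(Finset.mem_filter.1 hg).2]),
      Finset.sum_eq_zero (s := N) (fun g hg => by rw [(Finset.mem_filter.1 hg).2]; simp)]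
    simp [mul_comm]
  have hle : (S.card : ℝ) ≤ ∑ g ∈ S, ‖(χ : G → ℂ) g‖ ^ 2 := by
    refine H45.card_le_sum_char_norm_pow hχ S (fun k hk g hg => ?_)
      (fun g hg => (Finset.mem_filter.1 hg).2.2) 2
    obtain ⟨-, h1, h2⟩ := Finset.mem_filter.1 hg
    refine Finset.mem_filter.2 ⟨Finset.mem_univ _, fun h => h1 ?_,
      mt (H45.char_pow_eq_zero_iff hχ hk g).1 h2⟩
    obtain ⟨j, hj⟩ := exists_pow_eq_self_of_coprime
      (hk.coprime_dvd_right (orderOf_dvd_natCard g))
    rw [← hj]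
    exact norm_pow_eq_degree hχ h j
  have hd1 : 1 ≤ d ^ 2 := Nat.one_le_pow _ _ hdpos
  constructor
  · have : ((d ^ 2 - 1) * A.card : ℕ) ≤ ((N.card : ℕ) : ℝ) := by
      push_cast [Nat.cast_sub hd1]
      nlinarith
    exact_mod_cast this
  · intro h
    have heq : ∑ g ∈ S, ‖(χ : G → ℂ) g‖ ^ 2 = (S.card : ℝ) := by
      rw [Finset.sum_congr rfl fun g hg => ?_, Finset.sum_const, nsmul_eq_mul, mul_one]
      obtain ⟨-, h1, h2⟩ := Finset.mem_filter.1 hg
      rcases h g with h3 | h3 | h3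
      · exact absurd (norm_eq_zero.1 h3) h2
      · rw [h3, one_pow]
      · exact absurd h3 h1
    have : (((d ^ 2 - 1) * A.card : ℕ) : ℝ) = ((N.card : ℕ) : ℝ) := by
      push_cast [Nat.cast_sub hd1]
      nlinarith
    exact_mod_cast this

end Cfsg.Agent.H42
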